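import Mathlib
import Cfsg.Prelude.Def_CaseTheorems

/-!
# Project FW (S3211): the twisted swap case of Fong–Wong — interface

`L₁ ≅ SL₂(q₁)`, `L₂ ≅ SL₂(q₂)` commute, `L₁ ∩ L₂ = ⟨j⟩`, `[C(j) : L₁L₂] = 2` and some
`n ∈ C(j)` with `n² = j` interchanges `L₁` and `L₂`.  Then `G = C(j) O(G)`.
Package propositions for the team proof.
-/

set_option autoImplicit false

namespace Cfsg.Agent.Lib.Helper44.FW

universe u v w

/-- The abstract configuration of S3211. -/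
structure Cfg {G : Type u} [Group G] (L₁ L₂ : Subgroup G) (j n : G) : Prop where
  comm : ∀ x ∈ L₁, ∀ y ∈ L₂, x * y = y * x
  meet : L₁ ⊓ L₂ = Subgroup.zpowers j
  ord : orderOf j = 2
  le : L₁ ⊔ L₂ ≤ Subgroup.centralizer ({j} : Set G)
  idx : (L₁ ⊔ L₂).relIndex (Subgroup.centralizer ({j} : Set G)) = 2
  hn : n ∈ Subgroup.centralizer ({j} : Set G)
  hn2 : n ^ 2 = j
  swap : L₁.map (MulAut.conj n).toMonoidHom = L₂

/-- `SL₂`-like local data of a subgroup `L` containing the involution `j`. -/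
structure SL2Like {G : Type u} [Group G] (L : Subgroup G) (j : G) : Prop where
  uniq : ∀ x ∈ L, x ^ 2 = 1 → x = 1 ∨ x = j
  ex4 : ∃ x ∈ L, x ^ 2 = j
  sq : ∀ x ∈ L, x ^ 2 = j → ∀ u ∈ L, ∀ u' ∈ L, u ^ 2 = x → u' ^ 2 = x → u' = u ∨ u' = u * j

/-- Every involution of `C(j)` other than `j` is `x * y` with `x ∈ L₁`, `y ∈ L₂`,
`x² = y² = j`. -/
def Invol {G : Type u} [Group G] (L₁ L₂ : Subgroup G) (j : G) : Prop :=
  ∀ r ∈ Subgroup.centralizer ({j} : Set G), r ^ 2 = 1 → r ≠ 1 → r ≠ j →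
    ∃ x ∈ L₁, ∃ y ∈ L₂, r = x * y ∧ x ^ 2 = j ∧ y ^ 2 = j

/-- All involutions of `C(j)` other than `j` are conjugate in `C(j)`. -/
def HConj (G : Type u) [Group G] (j : G) : Prop :=
  ∀ s ∈ Subgroup.centralizer ({j} : Set G), s ^ 2 = 1 → s ≠ 1 → s ≠ j →
  ∀ t ∈ Subgroup.centralizer ({j} : Set G), t ^ 2 = 1 → t ≠ 1 → t ≠ j →
    ∃ c ∈ Subgroup.centralizer ({j} : Set G), c * s * c⁻¹ = t

/-- `-1` in `SL₂(F)`. -/
def negOne (F : Type u) [Field F] : Matrix.SpecialLinearGroup (Fin 2) F :=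
  ⟨!![-1, 0; 0, -1], by simp [Matrix.det_fin_two]⟩

/-- `[[0,-1],[1,0]]` in `SL₂(F)`. -/
def qA (F : Type u) [Field F] : Matrix.SpecialLinearGroup (Fin 2) F :=
  ⟨!![0, -1; 1, 0], by simp [Matrix.det_fin_two]⟩

/-! ## Packages: 2×2 matrices -/

/-- [SL2U] the only involution of `SL₂(F)` is `-1`. -/
def PkgSL2U : Prop :=
  ∀ (F : Type u) [Field F], (2 : F) ≠ 0 → ∀ x : Matrix.SpecialLinearGroup (Fin 2) F,
    x ^ 2 = 1 → x = 1 ∨ x = negOne F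

/-- [SL2SQ] an element `x` with `x² = -1` has at most two square roots, `u` and `-u`. -/
def PkgSL2SQ : Prop :=
  ∀ (F : Type u) [Field F], (2 : F) ≠ 0 → ∀ x u u' : Matrix.SpecialLinearGroup (Fin 2) F,
    x ^ 2 = negOne F → u ^ 2 = x → u' ^ 2 = x → u' = u ∨ u' = u * negOne F

/-- [TRANS] transport to a subgroup `L ≅ SL₂(F)`. -/
def PkgTrans : Prop :=
  ∀ (G : Type u) [Group G] (F : Type v) [Field F] [Fintype F], Odd (Fintype.card F) →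
    ∀ (L : Subgroup G), Nonempty (↥L ≃* Matrix.SpecialLinearGroup (Fin 2) F) →
    ∀ j : G, j ∈ L → orderOf j = 2 → SL2Like L j

/-! ## Packages: abstract group theory -/

/-- [INVOL] the involutions of `C(j)`. -/
def PkgInvol : Prop :=
  ∀ (G : Type u) [Group G] (L₁ L₂ : Subgroup G) (j n : G), Cfg L₁ L₂ j n →
    (∀ x ∈ L₁, x ^ 2 = 1 → x = 1 ∨ x = j) → (∀ x ∈ L₂, x ^ 2 = 1 → x = 1 ∨ x = j) →
    Invol L₁ L₂ j

/-- [HCONJ] conjugacy of the involutions of `C(j)` other than `j` (from S3209). -/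
def PkgHConj : Prop :=
  ∀ (G : Type u) [Group G] [Finite G] (F₁ : Type v) [Field F₁] [Fintype F₁]
    (F₂ : Type w) [Field F₂] [Fintype F₂],
    Odd (Fintype.card F₁) → Odd (Fintype.card F₂) → ∀ (L₁ L₂ : Subgroup G),
    Nonempty (↥L₁ ≃* Matrix.SpecialLinearGroup (Fin 2) F₁) →
    Nonempty (↥L₂ ≃* Matrix.SpecialLinearGroup (Fin 2) F₂) →
    ∀ (j n : G), Cfg L₁ L₂ j n → Invol L₁ L₂ j → HConj G j

/-- [SWAP] if some conjugate `≠ j` of `j` commutes with `j`, then every involution `t₀ ≠ j`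
of `C(j)` is swapped with `j` by some element. -/
def PkgSwap : Prop :=
  ∀ (G : Type u) [Group G] (j t₀ : G), orderOf j = 2 → HConj G j →
    t₀ ∈ Subgroup.centralizer ({j} : Set G) → t₀ ^ 2 = 1 → t₀ ≠ 1 → t₀ ≠ j →
    (∃ g : G, g * j * g⁻¹ ≠ j ∧ (g * j * g⁻¹) * j = j * (g * j * g⁻¹)) →
    ∃ g : G, g * j * g⁻¹ = t₀ ∧ g * t₀ * g⁻¹ = j

/-- [CNTEQ] a swapping element gives equally many square roots of `j` and of `t₀` in
`C(j) ∩ C(t₀)`. -/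
def PkgCntEq : Prop :=
  ∀ (G : Type u) [Group G] (j t₀ g : G), g * j * g⁻¹ = t₀ → g * t₀ * g⁻¹ = j →
    Nat.card {r : G // r * j = j * r ∧ r * t₀ = t₀ * r ∧ r ^ 2 = j} =
      Nat.card {r : G // r * j = j * r ∧ r * t₀ = t₀ * r ∧ r ^ 2 = t₀}

/-- [CY] the square roots of `t₀ = x₀ (n x₀ n⁻¹)` inside `L₁L₂` are at most four. -/
def PkgCY : Prop :=
  ∀ (G : Type u) [Group G] (L₁ L₂ : Subgroup G) (j n : G), Cfg L₁ L₂ j n →
    SL2Like L₁ j → SL2Like L₂ j → ∀ x₀ ∈ L₁, x₀ ^ 2 = j →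
    ∃ a b : G, ∀ r ∈ L₁ ⊔ L₂, r ^ 2 = x₀ * (n * x₀ * n⁻¹) →
      r = a ∨ r = a * j ∨ r = b ∨ r = b * j

/-- [PHI] a square root `r` of `t₀` in `C(j) ∩ C(t₀)` outside `L₁L₂` gives the square root
`r x₀` of `j`, different from `n`. -/
def PkgPhi : Prop :=
  ∀ (G : Type u) [Group G] (L₁ L₂ : Subgroup G) (j n : G), Cfg L₁ L₂ j n → Invol L₁ L₂ j →
    ∀ x₀ ∈ L₁, x₀ ^ 2 = j →
    ∀ r ∈ Subgroup.centralizer ({j} : Set G), r ∉ L₁ ⊔ L₂ →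
      r * (x₀ * (n * x₀ * n⁻¹)) = (x₀ * (n * x₀ * n⁻¹)) * r → r ^ 2 = x₀ * (n * x₀ * n⁻¹) →
      (r * x₀) ^ 2 = j ∧ r * x₀ ≠ n

/-- [CNT] the count: strictly more square roots of `j` than of `t₀` in `C(j) ∩ C(t₀)`. -/
def PkgCnt : Prop :=
  ∀ (G : Type u) [Group G] [Finite G] (L₁ L₂ : Subgroup G) (j n : G), Cfg L₁ L₂ j n →
    ∀ x₀ ∈ L₁, x₀ ^ 2 = j →
    (∃ a b : G, ∀ r ∈ L₁ ⊔ L₂, r ^ 2 = x₀ * (n * x₀ * n⁻¹) →
      r = a ∨ r = a * j ∨ r = b ∨ r = b * j) →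
    (∀ r ∈ Subgroup.centralizer ({j} : Set G), r ∉ L₁ ⊔ L₂ →
      r * (x₀ * (n * x₀ * n⁻¹)) = (x₀ * (n * x₀ * n⁻¹)) * r → r ^ 2 = x₀ * (n * x₀ * n⁻¹) →
      (r * x₀) ^ 2 = j ∧ r * x₀ ≠ n) →
    Nat.card {r : G // r * j = j * r ∧ r * (x₀ * (n * x₀ * n⁻¹)) = (x₀ * (n * x₀ * n⁻¹)) * r ∧
        r ^ 2 = x₀ * (n * x₀ * n⁻¹)} <
      Nat.card {r : G // r * j = j * r ∧ r * (x₀ * (n * x₀ * n⁻¹)) = (x₀ * (n * x₀ * n⁻¹)) * r ∧
        r ^ 2 = j}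

/-- [ISO] an involution commuting with none of its other conjugates is isolated in every
Sylow 2-subgroup containing it. -/
def PkgIso : Prop :=
  ∀ (G : Type u) [Group G] [Finite G] (j : G), orderOf j = 2 →
    (∀ g : G, (g * j * g⁻¹) * j = j * (g * j * g⁻¹) → g * j * g⁻¹ = j) →
    ∀ P : Sylow 2 G, j ∈ (P : Subgroup G) →
      ∀ g : G, g * j * g⁻¹ ∈ (P : Subgroup G) → g * j * g⁻¹ = j

/-- [ZCOR] from the conclusion of the `Z*`-theorem to `G = C(j) O(G)`. -/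
def PkgZCor : Prop :=
  ∀ (G : Type u) [Group G] [Finite G] (j : G), orderOf j = 2 →
    (∃ N : Subgroup G, N.Normal ∧ Odd (Nat.card N) ∧ ∀ g : G, j * g * j⁻¹ * g⁻¹ ∈ N) →
    Subgroup.centralizer ({j} : Set G) ⊔ Cfsg.oddCore G = ⊤

end Cfsg.Agent.Lib.Helper44.FW
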