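import Mathlib
import Cfsg.Agent.Lib.Helper44.FW.Defs
import Cfsg.Agent.S0215

/-!
# Project FW (S3211): assembly from the packages
-/

set_option autoImplicit false

namespace Cfsg.Agent.Lib.Helper44.FW

universe u v w

theorem s3211_of (hTr₁ : PkgTrans.{u, v}) (hTr₂ : PkgTrans.{u, w}) (hInv : PkgInvol.{u})
    (hHC : PkgHConj.{u, v, w}) (hSw : PkgSwap.{u}) (hCE : PkgCntEq.{u}) (hCY : PkgCY.{u})
    (hPhi : PkgPhi.{u}) (hCnt : PkgCnt.{u}) (hIso : PkgIso.{u}) (hZ : PkgZCor.{u})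
    {G : Type u} [Group G] [Finite G]
    {F₁ : Type v} [Field F₁] [Fintype F₁] {F₂ : Type w} [Field F₂] [Fintype F₂]
    (hF₁ : Odd (Fintype.card F₁)) (hF₂ : Odd (Fintype.card F₂)) (L₁ L₂ : Subgroup G)
    (e₁ : ↥L₁ ≃* Matrix.SpecialLinearGroup (Fin 2) F₁)
    (e₂ : ↥L₂ ≃* Matrix.SpecialLinearGroup (Fin 2) F₂)
    (hc : ∀ x ∈ L₁, ∀ y ∈ L₂, x * y = y * x) (j : G) (hj : orderOf j = 2)
    (hm : L₁ ⊓ L₂ = Subgroup.zpowers j)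
    (hle : L₁ ⊔ L₂ ≤ Subgroup.centralizer ({j} : Set G))
    (hi : (L₁ ⊔ L₂).relIndex (Subgroup.centralizer ({j} : Set G)) = 2) (n : G)
    (hn : n ∈ Subgroup.centralizer ({j} : Set G))
    (hn2 : n ^ 2 = j) (hswap : L₁.map (MulAut.conj n).toMonoidHom = L₂) :
    Subgroup.centralizer ({j} : Set G) ⊔ Cfsg.oddCore G = ⊤ := by
  have cfg : Cfg L₁ L₂ j n := ⟨hc, hm, hj, hle, hi, hn, hn2, hswap⟩
  have hjmem : j ∈ L₁ ⊓ L₂ := by rw [hm]; exact Subgroup.mem_zpowers j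
  have s₁ : SL2Like L₁ j := hTr₁ G F₁ hF₁ L₁ ⟨e₁⟩ j hjmem.1 hj
  have s₂ : SL2Like L₂ j := hTr₂ G F₂ hF₂ L₂ ⟨e₂⟩ j hjmem.2 hj
  have inv : Invol L₁ L₂ j := hInv G L₁ L₂ j n cfg s₁.uniq s₂.uniq
  have hconj : HConj G j := hHC G F₁ F₂ hF₁ hF₂ L₁ L₂ ⟨e₁⟩ ⟨e₂⟩ j n cfg inv
  obtain ⟨x₀, hx₀, hx₀2⟩ := s₁.ex4
  have hy₀mem : n * x₀ * n⁻¹ ∈ L₂ := by
    rw [← hswap]; exact ⟨x₀, hx₀, rfl⟩
  have hj1 : j ≠ 1 := by
    intro h; rw [h, orderOf_one] at hj; omega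
  have hjj : j * j = 1 := by
    rw [← sq, ← hj]; exact pow_orderOf_eq_one j
  have hnj : n * j * n⁻¹ = j := by
    have h := Subgroup.mem_centralizer_singleton_iff.mp hn
    rw [h]; group
  have hy₀2 : (n * x₀ * n⁻¹) ^ 2 = j := by
    rw [conj_pow, hx₀2, hnj]
  have hxy : x₀ * (n * x₀ * n⁻¹) = (n * x₀ * n⁻¹) * x₀ := hc x₀ hx₀ _ hy₀mem
  have ht₀2 : (x₀ * (n * x₀ * n⁻¹)) ^ 2 = 1 := by
    have h1 : (x₀ * (n * x₀ * n⁻¹)) ^ 2 = x₀ ^ 2 * (n * x₀ * n⁻¹) ^ 2 := by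
      rw [sq, sq, sq]
      calc x₀ * (n * x₀ * n⁻¹) * (x₀ * (n * x₀ * n⁻¹))
          = x₀ * ((n * x₀ * n⁻¹) * x₀) * (n * x₀ * n⁻¹) := by group
        _ = x₀ * (x₀ * (n * x₀ * n⁻¹)) * (n * x₀ * n⁻¹) := by rw [← hxy]
        _ = x₀ * x₀ * ((n * x₀ * n⁻¹) * (n * x₀ * n⁻¹)) := by group
    rw [h1, hx₀2, hy₀2, hjj]
  have hmeet2 : ∀ z ∈ L₁ ⊓ L₂, z ^ 2 = 1 := by
    intro z hz
    rw [hm] at hz
    obtain ⟨k, rfl⟩ := Subgroup.mem_zpowers_iff.mp hz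
    have : (j ^ k) ^ 2 = (j ^ 2) ^ k := by
      rw [← zpow_natCast, ← zpow_natCast, ← zpow_mul, ← zpow_mul, mul_comm]
    rw [this, sq, hjj, one_zpow]
  have ht₀1 : x₀ * (n * x₀ * n⁻¹) ≠ 1 := by
    intro h
    have hy : n * x₀ * n⁻¹ = x₀⁻¹ := eq_inv_of_mul_eq_one_right h
    have hmem : n * x₀ * n⁻¹ ∈ L₁ ⊓ L₂ := ⟨by rw [hy]; exact L₁.inv_mem hx₀, hy₀mem⟩
    have := hmeet2 _ hmem
    rw [hy₀2] at this
    exact hj1 this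
  have ht₀j : x₀ * (n * x₀ * n⁻¹) ≠ j := by
    intro h
    have hy : n * x₀ * n⁻¹ = x₀⁻¹ * j := by rw [← h]; group
    have hmem : n * x₀ * n⁻¹ ∈ L₁ ⊓ L₂ :=
      ⟨by rw [hy]; exact L₁.mul_mem (L₁.inv_mem hx₀) hjmem.1, hy₀mem⟩
    have := hmeet2 _ hmem
    rw [hy₀2] at this
    exact hj1 this
  have ht₀C : x₀ * (n * x₀ * n⁻¹) ∈ Subgroup.centralizer ({j} : Set G) :=
    hle (Subgroup.mul_mem_sup hx₀ hy₀mem)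
  have claimA : ∀ g : G, (g * j * g⁻¹) * j = j * (g * j * g⁻¹) → g * j * g⁻¹ = j := by
    intro g hcomm
    by_contra hne
    obtain ⟨g₂, h1, h2⟩ := hSw G j _ hj hconj ht₀C ht₀2 ht₀1 ht₀j ⟨g, hne, hcomm⟩
    have heq := hCE G j _ g₂ h1 h2
    have hlt := hCnt G L₁ L₂ j n cfg x₀ hx₀ hx₀2 (hCY G L₁ L₂ j n cfg s₁ s₂ x₀ hx₀ hx₀2)
      (hPhi G L₁ L₂ j n cfg inv x₀ hx₀ hx₀2)
    rw [heq] at hlt
    exact lt_irrefl _ hlt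
  have hzp : IsPGroup 2 ↥(Subgroup.zpowers j) :=
    IsPGroup.of_card (n := 1) (by rw [Nat.card_zpowers, hj]; rfl)
  obtain ⟨P, hP⟩ := hzp.exists_le_sylow
  have hjP : j ∈ (P : Subgroup G) := hP (Subgroup.mem_zpowers j)
  have hiso := hIso G j hj claimA P hjP
  exact hZ G j hj (Cfsg.Agent.S0215.result P j hj hjP hiso)

end Cfsg.Agent.Lib.Helper44.FW
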